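import Cfsg.Agent.Lib.ReeAut.Main
import Cfsg.Agent.Lib.Chev.GraphIsoAll
import Cfsg.Agent.Lib.Chev.TwistG2ReeSylow
import Cfsg.Agent.Lib.GLTorus
import Cfsg.Agent.Lib.Classical.SLTwoTorus
import Cfsg.Agent.Lib.Classical.Order

/-! Cyclicity of the Sylow subgroups for the primes at least five of the Ree groups. -/

set_option autoImplicit false

namespace Cfsg.Agent.Lib.ReeMult

open Cfsg.Lie Cfsg.Agent.Lib Cfsg.Agent.Lib.Chev Cfsg.Agent.Lib.Chev.G2
open Cfsg.Agent.Lib.ReeAut

theorem cyclic_of_injective {G H : Type*} [Group G] [Group H] [Finite G] [Finite H] {r : ℕ}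
    [Fact r.Prime] (f : G →* H) (hf : Function.Injective f) (g : H)
    (hg : r ^ (Nat.card H).factorization r ∣ orderOf g) (P : Sylow r G) :
    IsCyclic (P : Subgroup G) := by
  classical
  obtain ⟨k, hk⟩ := hg
  have ho : orderOf (g ^ k) = r ^ (Nat.card H).factorization r := by
    have h0 : 0 < orderOf g := orderOf_pos g
    rw [orderOf_pow, hk, Nat.gcd_eq_right (dvd_mul_left k _), Nat.mul_div_cancel]
    exact Nat.pos_of_ne_zero (fun e => by rw [e, mul_zero] at hk; omega)
  let S : Sylow r H := Sylow.ofCard (Subgroup.zpowers (g ^ k)) (by rw [Nat.card_zpowers, ho])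
  obtain ⟨Q, hQ⟩ := (P.isPGroup'.map f).exists_le_sylow
  obtain ⟨x, hx⟩ := MulAction.exists_smul_eq H S Q
  haveI : IsCyclic (S : Subgroup H) := by
    show IsCyclic ↥(Subgroup.zpowers (g ^ k))
    infer_instance
  haveI : IsCyclic (Q : Subgroup H) := by
    rw [← hx, Sylow.coe_subgroup_smul]
    exact isCyclic_of_surjective _ (Subgroup.equivSMul (MulAut.conj x) (S : Subgroup H)).surjective
  exact isCyclic_of_injective ((Subgroup.inclusion hQ).comp (f.subgroupMap (P : Subgroup G)))
    ((Subgroup.inclusion_injective hQ).comp fun a b h => Subtype.ext (hf (congrArg Subtype.val h)))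

variable {K : Type*} [Field K] [Fintype K] [CharP K 3] {m : ℕ} (θ : K ≃+* K)
  (hθ : ∀ t : K, θ t = t ^ 3 ^ m) (hK : Fintype.card K = 3 ^ (2 * m + 1))

omit θ in
theorem card_In :
    Fintype.card {a : chevG2.Idx // G2.isoData.In a = true} = 7 := by
  rw [Fintype.card_subtype]
  simp only [IsoData.In]
  decide +kernel

omit θ hθ hK in
theorem exists_hom (m : ℕ) :
    ∃ f : GR K m →* GL {a : chevG2.Idx // G2.isoData.In a = true} K, Function.Injective f := by
  classical
  have hle : ∀ g : GR K m, g.1 ∈ chevG2.group K := fun g => by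
    have h : twistedG2 K (3 ^ m) ≤ chevG2.group K := by
      refine (Subgroup.closure_le _).2 fun x hx => ?_
      obtain ⟨w, ⟨t, u, v, rfl | rfl⟩, e⟩ := hx <;> obtain rfl := eq_wg e <;>
        refine G2.checked.wg_mem_group _ fun p hp => ?_
      · simp only [reeWordU, List.mem_cons, List.not_mem_nil, or_false] at hp
        rcases hp with rfl | rfl | rfl | rfl | rfl | rfl <;>
          exact lt12 (by norm_num [g2a, g2b, g2ab, g2aab, g2aaab, g2aaabb])
      · rw [negV] at hp
        simp only [List.zip_cons_cons, List.zip_nil_right, List.mem_cons, List.not_mem_nil,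
          or_false] at hp
        rcases hp with rfl | rfl | rfl | rfl | rfl | rfl <;> exact lt12 (by norm_num)
    exact h g.2
  let I := {a : chevG2.Idx // G2.isoData.In a = true}
  let φ : GR K m →* Matrix I I K :=
    { toFun := fun g => (g.1 : Matrix chevG2.Idx chevG2.Idx K).submatrix Subtype.val Subtype.val
      map_one' := by
        ext a b
        show (1 : Matrix chevG2.Idx chevG2.Idx K) a.1 b.1 = (1 : Matrix I I K) a b
        simp [Matrix.one_apply, Subtype.val_inj]
      map_mul' := fun g h => by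
        ext a b
        show ((g.1 * h.1 : GL chevG2.Idx K) : Matrix chevG2.Idx chevG2.Idx K) a.1 b.1 = _
        rw [G2.isoData.mul_apply_I (G2.isoData.inv_group G2.checked (hle h)) a.1 b.2,
          Matrix.mul_apply]
        exact (Finset.sum_subtype _ (by simp) (fun c : chevG2.Idx =>
          (g.1 : Matrix chevG2.Idx chevG2.Idx K) a.1 c * (h.1 : Matrix chevG2.Idx chevG2.Idx K) c b.1)) }
  refine ⟨φ.toHomUnits, (injective_iff_map_eq_one _).2 fun g hg => Subtype.ext ?_⟩
  refine G2.isoData.eq_one_of_trivI G2.checked (hle g) fun a b ha hb => ?_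
  have h1 : φ g = (1 : Matrix I I K) := congrArg Units.val hg
  have := congrFun (congrFun h1 ⟨a, ha⟩) ⟨b, hb⟩
  simpa [φ, I, Matrix.one_apply] using this

include hθ hK

theorem cyclic_sylow (hm : 1 ≤ m) {r : ℕ} [hr : Fact r.Prime] (h2 : r ≠ 2) (h3 : r ≠ 3)
    (P : Sylow r (GR K m)) : IsCyclic (P : Subgroup (GR K m)) := by
  classical
  have hcard := card_ree θ hθ hK
  set q := 3 ^ (2 * m + 1) with hq
  have hq3 : 3 ≤ q := Nat.le_self_pow (by omega) 3
  have hrq : ¬ r ∣ q := fun h => h3 ((Nat.prime_dvd_prime_iff_eq hr.1 Nat.prime_three).1 (hr.1.dvd_of_dvd_pow h))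
  have hr5 : 5 ≤ r := by
    have := hr.1.two_le
    rcases Nat.lt_or_ge r 5 with h | h
    · interval_cases r <;> first | omega | (exact absurd hr.1 (by norm_num))
    · exact h
  haveI : Finite (GR K m) := inferInstance
  have hz : ∀ n : ℕ, ((n : ZMod r) = 0 ↔ r ∣ n) := fun n => ZMod.natCast_eq_zero_iff n r
  have hqr : (q : ZMod r) ≠ 0 := fun h => hrq ((hz q).1 h)
  have h2r : (2 : ZMod r) ≠ 0 := fun h => by
    have := (hz 2).1 (by exact_mod_cast h)
    have := Nat.le_of_dvd (by norm_num) this
    omega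
  have h3r : (3 : ZMod r) ≠ 0 := fun h => by
    have := (hz 3).1 (by exact_mod_cast h)
    have := Nat.le_of_dvd (by norm_num) this
    omega
  have hne : q - 1 ≠ 0 := by omega
  have e3 : q ^ 3 + 1 = (q + 1) * (q ^ 2 - q + 1) := by
    have : q ≤ q ^ 2 := Nat.le_self_pow (by norm_num) q
    zify [this]; ring
  have hv : (Nat.card (GR K m)).factorization r = (q - 1).factorization r + (q + 1).factorization r +
      (q ^ 2 - q + 1).factorization r := by
    rw [hcard, e3, Nat.factorization_mul (by positivity) (by positivity),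
      Nat.factorization_mul (by positivity) hne, Nat.factorization_mul (by positivity) (by positivity)]
    simp only [Finsupp.coe_add, Pi.add_apply]
    rw [Nat.factorization_eq_zero_of_not_dvd (fun h => hrq (hr.1.dvd_of_dvd_pow h))]
    omega
  have cast1 : ((q - 1 : ℕ) : ZMod r) = (q : ZMod r) - 1 := by
    rw [Nat.cast_sub (by omega)]; simp
  have cast2 : ((q ^ 2 - q + 1 : ℕ) : ZMod r) = (q : ZMod r) ^ 2 - q + 1 := by
    rw [Nat.cast_add, Nat.cast_sub (Nat.le_self_pow (by norm_num) q)]; simp
  obtain ⟨T⟩ := exists_tor θ hθ hK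
  rcases Classical.em (r ∣ q - 1) with hA | hA
  · have e : (q : ZMod r) = 1 := by
      have := (hz _).2 hA; rw [cast1] at this; linear_combination this
    obtain ⟨z, hzgen⟩ := IsCyclic.exists_generator (α := Kˣ)
    refine cyclic_of_injective (MonoidHom.id _) (fun _ _ h => h) (T.hom z) ?_ P
    rw [hv, Nat.factorization_eq_zero_of_not_dvd (n := q + 1) (fun h => h2r (by
        have := (hz _).2 h; push_cast at this; linear_combination this - e)),
      Nat.factorization_eq_zero_of_not_dvd (n := q ^ 2 - q + 1) (fun h => one_ne_zero (by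
        have := (hz _).2 h; rw [cast2, e] at this; linear_combination this : (1 : ZMod r) = 0)),
      add_zero, add_zero, orderOf_injective T.hom T.inj,
      orderOf_eq_card_of_forall_mem_zpowers hzgen, Nat.card_eq_fintype_card, Fintype.card_units, hK]
    exact Nat.ordProj_dvd _ _
  rcases Classical.em (r ∣ q + 1) with hB | hB
  · have e : (q : ZMod r) = -1 := by
      have := (hz _).2 hB; push_cast at this; linear_combination this
    have hv' : (Nat.card (GR K m)).factorization r = (q + 1).factorization r := by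
      rw [hv, Nat.factorization_eq_zero_of_not_dvd hA,
        Nat.factorization_eq_zero_of_not_dvd (n := q ^ 2 - q + 1) (fun h => h3r (by
          have := (hz _).2 h; rw [cast2, e] at this; linear_combination this)), zero_add, add_zero]
    have heq := eq_fixed θ hθ hK
    obtain ⟨ζ, hζ, -⟩ := exists_torusHom θ hθ hK
    obtain ⟨d, hd⟩ := hζ.2 (-1)
    have hne1 : (-1 : Kˣ) ≠ 1 := fun h => by
      have h' : (-1 : K) = 1 := by simpa using congrArg Units.val h
      have h3 : (3 : K) = 0 := CharP.ofNat_eq_zero K 3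
      exact one_ne_zero (by linear_combination h' + h3 : (1 : K) = 0)
    let a : ↥(reeTwist θ).fixed := ⟨d.1, (Subgroup.mem_inf.1 d.2).2⟩
    have ha1 : a ≠ 1 := fun h => hne1 (by
      rw [← hd, show d = 1 from Subtype.ext (congrArg Subtype.val h :), map_one])
    have ha2 : a * a = 1 := by
      have h1 : d * d = 1 := hζ.1 (by rw [map_mul, hd, map_one, neg_one_mul, neg_neg])
      exact Subtype.ext (congrArg Subtype.val h1 :)
    obtain ⟨e', -⟩ := centralizer_involution θ hθ hK a (Subgroup.mem_inf.1 d.2).1 ha1 ha2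
    let ι : Matrix.ProjectiveSpecialLinearGroup (Fin 2) K →* GR K m :=
      (MulEquiv.subgroupCongr heq.symm).toMonoidHom.comp ((Subgroup.subtype _).comp
        (e'.symm.toMonoidHom.comp (MonoidHom.inr _ _)))
    have hι : Function.Injective ι := fun x y h => by
      have h1 := e'.symm.injective (Subtype.ext ((MulEquiv.subgroupCongr heq.symm).injective h))
      exact (Prod.mk.inj h1).2
    haveI : Finite (Matrix.SpecialLinearGroup (Fin 2) K) := inferInstance
    obtain ⟨R⟩ : Nonempty (Sylow r (Matrix.SpecialLinearGroup (Fin 2) K)) := inferInstance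
    haveI := Classical.sl_two_odd_sylow_cyclic 3 r h2 h3 R
    obtain ⟨g, hg⟩ := IsCyclic.exists_generator (α := (R : Subgroup (Matrix.SpecialLinearGroup (Fin 2) K)))
    have hgo : orderOf (g : Matrix.SpecialLinearGroup (Fin 2) K) =
        r ^ (Nat.card (Matrix.SpecialLinearGroup (Fin 2) K)).factorization r := by
      rw [Subgroup.orderOf_coe, orderOf_eq_card_of_forall_mem_zpowers hg]
      exact R.card_eq_multiplicity
    refine cyclic_of_injective (MonoidHom.id _) (fun _ _ h => h)
      (ι (QuotientGroup.mk (g : Matrix.SpecialLinearGroup (Fin 2) K))) ?_ P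
    rw [orderOf_injective ι hι]
    set gq : Matrix.ProjectiveSpecialLinearGroup (Fin 2) K := QuotientGroup.mk (g : Matrix.SpecialLinearGroup (Fin 2) K)
    have hsl : Nat.card (Matrix.SpecialLinearGroup (Fin 2) K) = q * (q ^ 2 - 1) := by
      have h := Classical.card_GL_eq_units_mul_card_SL (ι := Fin 2) (R := K)
      rw [Matrix.card_GL_field, Fin.prod_univ_two, hK, Nat.card_units, Nat.card_eq_fintype_card, hK] at h
      simp only [Fin.val_zero, Fin.val_one, pow_zero, pow_one] at h
      refine Nat.eq_of_mul_eq_mul_left (show 0 < q - 1 by omega) (h.symm.trans ?_)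
      have h1 : q ^ 2 - q = q * (q - 1) := by rw [Nat.mul_sub, mul_one, pow_two]
      rw [h1]; ring
    have h2' : orderOf (g : Matrix.SpecialLinearGroup (Fin 2) K) ∣ 2 * orderOf gq := by
      refine orderOf_dvd_of_pow_eq_one ?_
      rw [mul_comm, pow_mul]
      have hmem : (g : Matrix.SpecialLinearGroup (Fin 2) K) ^ orderOf gq ∈ Subgroup.center _ := by
        rw [← QuotientGroup.eq_one_iff, QuotientGroup.mk_pow]
        exact pow_orderOf_eq_one gq
      obtain ⟨c, hc2, hc⟩ := Matrix.SpecialLinearGroup.mem_center_iff.1 hmem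
      apply Subtype.ext
      rw [pow_two, Matrix.SpecialLinearGroup.coe_mul, ← hc, ← map_mul, ← pow_two, Fintype.card_fin] at *
      rw [hc2, map_one, Matrix.SpecialLinearGroup.coe_one]
    rw [hgo] at h2'
    have hcop : Nat.Coprime (r ^ (Nat.card (Matrix.SpecialLinearGroup (Fin 2) K)).factorization r) 2 :=
      ((Nat.coprime_primes hr.1 Nat.prime_two).2 h2).pow_left _
    refine dvd_trans (pow_dvd_pow r ?_) (hcop.dvd_of_dvd_mul_left h2')
    rw [hv', hsl]
    have hq2 : q ^ 2 - 1 = (q + 1) * (q - 1) := by rw [← Nat.sq_sub_sq, one_pow]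
    rw [hq2, Nat.factorization_mul (by positivity) (Nat.mul_ne_zero (by omega) hne),
      Nat.factorization_mul (by omega) hne]
    simp only [Finsupp.coe_add, Pi.add_apply]
    omega
  · obtain ⟨f, hf⟩ := exists_hom (K := K) m
    let I := {a : chevG2.Idx // G2.isoData.In a = true}
    let eI : I ≃ Fin 7 := Fintype.equivFinOfCardEq card_In
    let eG : GL I K ≃* GL (Fin 7) K :=
      Units.mapEquiv (Matrix.reindexAlgEquiv K K eI).toRingEquiv.toMulEquiv
    obtain ⟨g, hg⟩ := GLTorus.exists_orderOf (F := K) 3 7 6 (by norm_num) (by norm_num)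
    rcases Classical.em (r ∣ Nat.card (GR K m)) with hdiv | hdiv
    swap
    · haveI : Subsingleton (P : Subgroup (GR K m)) := by
        rw [← Nat.card_eq_one_iff_unique.trans (and_iff_left inferInstance)]
        rw [P.card_eq_multiplicity, Nat.factorization_eq_zero_of_not_dvd hdiv, pow_zero]
      infer_instance
    have hΦ : r ∣ q ^ 2 - q + 1 := by
      rw [hcard, e3] at hdiv
      rcases hr.1.dvd_mul.1 hdiv with h | h
      · rcases hr.1.dvd_mul.1 h with h | h
        exacts [absurd (hr.1.dvd_of_dvd_pow h) hrq, absurd h hA]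
      · exact (hr.1.dvd_mul.1 h).resolve_left hB
    have eΦ : (q : ZMod r) ^ 2 - q + 1 = 0 := by rw [← cast2]; exact (hz _).2 hΦ
    have hA' : (q : ZMod r) - 1 ≠ 0 := fun h => hA ((hz _).1 (by rw [cast1, h]))
    have hB' : (q : ZMod r) + 1 ≠ 0 := fun h => hB ((hz _).1 (by push_cast; exact h))
    have hS : Nat.card (GL (Fin 7) K) = ∏ i : Fin 7, (q ^ 7 - q ^ (i : ℕ)) := by
      rw [Matrix.card_GL_field, hK]
    have hp : ∀ j, 1 ≤ j → j ≤ 5 → (q : ZMod r) ^ j ≠ 1 := by
      intro j h1 h5 h
      interval_cases j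
      · exact hA' (by linear_combination h)
      · exact (mul_ne_zero hA' hB') (by linear_combination h)
      · exact h2r (by linear_combination -h + ((q : ZMod r) + 1) * eΦ)
      · rcases mul_eq_zero.1 (show ((q : ZMod r) - 1) * ((q : ZMod r) + 1) *
            ((q : ZMod r) ^ 2 + 1) = 0 by linear_combination h) with h' | h'
        · exact (mul_ne_zero hA' hB') h'
        · exact hqr (by linear_combination h' - eΦ)
      · have h' : (q : ZMod r) ^ 2 + 1 = 0 := by
          linear_combination -h + (q : ZMod r) ^ 2 * ((q : ZMod r) + 1) * eΦ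
        exact hqr (by linear_combination h' - eΦ)
    refine cyclic_of_injective (eG.toMonoidHom.comp f) (eG.injective.comp hf) g ?_ P
    rw [hg, hS, Nat.card_eq_fintype_card, hK,
      Nat.factorization_prod (fun i _ => Nat.sub_ne_zero_of_lt (Nat.pow_lt_pow_right (by omega) i.2)),
      Finset.sum_apply' r, Fin.sum_univ_seven]
    have hzero : ∀ i j : ℕ, i + j = 7 → (q : ZMod r) ^ j ≠ 1 → (q ^ 7 - q ^ i).factorization r = 0 := by
      intro i j hij hj
      refine Nat.factorization_eq_zero_of_not_dvd fun h => hj ?_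
      have := (hz _).2 h
      rw [Nat.cast_sub (Nat.pow_le_pow_right (by omega) (by omega)), ← hij, pow_add] at this
      push_cast at this
      have e' : (q : ZMod r) ^ i * ((q : ZMod r) ^ j - 1) = 0 := by linear_combination this
      exact sub_eq_zero.1 ((mul_eq_zero.1 e').resolve_left (pow_ne_zero _ hqr))
    have hseven : (q : ZMod r) ^ 7 ≠ 1 := fun h => hA' (by linear_combination h - (q : ZMod r) * ((q : ZMod r) ^ 2 - 1) * ((q : ZMod r) ^ 2 + q + 1) * eΦ)
    simp only [Fin.val_zero, Fin.val_one, Fin.val_two]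
    rw [hzero 0 7 rfl hseven, hzero 2 5 rfl (hp 5 (by norm_num) le_rfl),
      show ((3 : Fin 7) : ℕ) = 3 from rfl, show ((4 : Fin 7) : ℕ) = 4 from rfl,
      show ((5 : Fin 7) : ℕ) = 5 from rfl, show ((6 : Fin 7) : ℕ) = 6 from rfl,
      hzero 3 4 rfl (hp 4 (by norm_num) (by norm_num)), hzero 4 3 rfl (hp 3 (by norm_num) (by norm_num)),
      hzero 5 2 rfl (hp 2 (by norm_num) (by norm_num)), hzero 6 1 rfl (hp 1 le_rfl (by norm_num))]
    have h7 : q ^ 7 - q ^ 1 = q * (q ^ 6 - 1) := by rw [Nat.mul_sub, mul_one, ← pow_succ', pow_one]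
    rw [h7, Nat.factorization_mul (by omega) (Nat.sub_ne_zero_of_lt (Nat.one_lt_pow (by norm_num) (by omega)))]
    simp only [Finsupp.coe_add, Pi.add_apply, Nat.factorization_eq_zero_of_not_dvd hrq, zero_add, add_zero]
    exact Nat.ordProj_dvd _ _

end Cfsg.Agent.Lib.ReeMult
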