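import Cfsg.Agent.Lib.ReeAut.Main

/-! The preimage of a Sylow 3-subgroup in a central extension of a Ree group. -/

set_option autoImplicit false

namespace Cfsg.Agent.Lib.ReeMult

open Cfsg.Lie Cfsg.Agent.Lib Cfsg.Agent.Lib.Chev Cfsg.Agent.Lib.Chev.G2
open Cfsg.Agent.Lib.ReeAut
open scoped commutatorElement

section Comm

variable {G : Type*} [Group G]

theorem comm_mul_left (x y w : G) : ⁅x * y, w⁆ = x * ⁅y, w⁆ * x⁻¹ * ⁅x, w⁆ := by
  simp only [commutatorElement_def]; group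

theorem comm_mul_right (w x y : G) : ⁅w, x * y⁆ = ⁅w, x⁆ * (x * ⁅w, y⁆ * x⁻¹) := by
  simp only [commutatorElement_def]; group

theorem conj_congr {Q : Type*} [Group Q] (σ : G →* Q) (hc : σ.ker ≤ Subgroup.center G) {g g' : G}
    (h : σ g = σ g') (x : G) : g * x * g⁻¹ = g' * x * g'⁻¹ := by
  have h1 : g'⁻¹ * g ∈ Subgroup.center G :=
    hc (by rw [MonoidHom.mem_ker, map_mul, map_inv, h, inv_mul_cancel])
  calc g * x * g⁻¹ = g' * ((g'⁻¹ * g) * x) * (g'⁻¹ * g)⁻¹ * g'⁻¹ := by group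
    _ = g' * (x * (g'⁻¹ * g)) * (g'⁻¹ * g)⁻¹ * g'⁻¹ := by rw [Subgroup.mem_center_iff.1 h1 x]
    _ = _ := by group

theorem comm_congr {Q : Type*} [Group Q] (σ : G →* Q) (hc : σ.ker ≤ Subgroup.center G) {x x' y y' : G}
    (hx : σ x = σ x') (hy : σ y = σ y') : ⁅x, y⁆ = ⁅x', y'⁆ := by
  calc ⁅x, y⁆ = x * y * x⁻¹ * y⁻¹ := commutatorElement_def x y
    _ = x' * (y * (x'⁻¹) * y⁻¹) := by rw [conj_congr σ hc hx y]; group
    _ = x' * (y' * (x'⁻¹) * y'⁻¹) := by rw [conj_congr σ hc hy x'⁻¹]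
    _ = ⁅x', y'⁆ := by rw [commutatorElement_def]; group

end Comm

section Pairings

variable {K : Type*} [Field K] [CharP K 3] {A : Type*} [CommGroup A] {β : K → K → A}
  (hl : ∀ a a' b, β (a + a') b = β a b * β a' b) (hr : ∀ a b b', β a (b + b') = β a b * β a b')

include hr in
theorem pair_zero_right (a : K) : β a 0 = 1 := by
  have := hr a 0 0
  rwa [add_zero, eq_comm, mul_eq_left] at this

include hl in
theorem pair_zero_left (b : K) : β 0 b = 1 := by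
  have := hl 0 0 b
  rwa [add_zero, eq_comm, mul_eq_left] at this

include hr in
theorem pair_sign (hs : ∀ a b, β a (-b) = β a b) (a b : K) : β a b = 1 := by
  have h3 : (3 : K) = 0 := CharP.ofNat_eq_zero K 3
  have e1 : β a b * β a b = 1 := by
    have := hr a b (-b)
    rwa [add_neg_cancel, pair_zero_right hr, hs, eq_comm] at this
  have e2 : β a b * β a b = β a b := by
    rw [← hr, show b + b = -b by linear_combination b * h3, hs]
  rwa [e1, eq_comm] at e2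

include hl hr in
theorem pair_weight (w : K → K) (hw0 : ∀ x, x ≠ 0 → w x ≠ 0)
    (hinv : ∀ x a b, x ≠ 0 → β (x * a) (w x * b) = β a b)
    (t : K) (ht0 : t ≠ 0) (ht1 : 1 + t ≠ 0) (ht : 1 / w (1 + t) - 1 - 1 / w t ≠ 0) (a b : K) :
    β a b = 1 := by
  have hf : ∀ a b, a ≠ 0 → β a b = β 1 (b / w a) := by
    intro a b ha
    have := hinv a 1 (b / w a) ha
    rwa [mul_one, mul_div_cancel₀ _ (hw0 a ha)] at this
  have key : ∀ d, β 1 d = 1 := by
    intro d
    set e := d / (1 / w (1 + t) - 1 - 1 / w t) with he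
    have h1 := hl 1 t e
    rw [hf (1 + t) e ht1, hf t e ht0] at h1
    have hd : e / w (1 + t) = d + (e + e / w t) := by
      have : e * (1 / w (1 + t) - 1 - 1 / w t) = d := by rw [he, div_mul_cancel₀ _ ht]
      rw [← this]; ring
    rw [hd, hr, hr] at h1
    exact mul_eq_right.1 h1
  rcases eq_or_ne a 0 with rfl | ha
  · exact pair_zero_left hl b
  · rw [hf a b ha, key]

include hl hr in
theorem pair_linear (hinv : ∀ x a b, x ≠ 0 → β (x * a) (x * b) = β a b)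
    (t : K) (ht0 : t ≠ 0) (ht1 : 1 + t ≠ 0) (ht2 : t ≠ 1) (a b : K) : β a b = 1 := by
  refine pair_weight hl hr id (fun x hx => hx) hinv t ht0 ht1 ?_ a b
  intro e
  simp only [id] at e
  field_simp at e
  have h3 : (3 : K) = 0 := CharP.ofNat_eq_zero K 3
  exact ht2 (sub_eq_zero.1 (pow_eq_zero_iff (n := 2) (by norm_num) |>.1
    (show (t - 1) ^ 2 = 0 by linear_combination -e - t * h3)))

end Pairings

variable {K : Type*} [Field K] [Fintype K] [CharP K 3] {m : ℕ} (θ : K ≃+* K)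
  (hθ : ∀ t : K, θ t = t ^ 3 ^ m) (hK : Fintype.card K = 3 ^ (2 * m + 1))

include hθ hK

omit hθ θ in
theorem exists_good (hm : 1 ≤ m) : ∃ t : K, t ≠ 0 ∧ 1 + t ≠ 0 ∧
    1 / ((1 + t) ^ (3 * 3 ^ m + 2)) - 1 - 1 / (t ^ (3 * 3 ^ m + 2)) ≠ 0 := by
  classical
  by_contra hcon
  push Not at hcon
  set k := 3 * 3 ^ m + 2 with hk
  open Polynomial in
  let N : Polynomial K := X ^ k - (1 + X) ^ k * X ^ k - (1 + X) ^ k
  have hN : N ≠ 0 := by
    intro h
    have := congrArg (Polynomial.eval 0) h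
    have hk0 : k ≠ 0 := by omega
    simp [N, zero_pow hk0] at this
  have hdeg : N.natDegree ≤ k + k := by
    simp only [N]
    compute_degree
    all_goals omega
  have hroot : (Finset.univ \ {0, -1} : Finset K).val ⊆ N.roots := by
    intro t ht
    rw [Finset.mem_val, Finset.mem_sdiff] at ht
    simp only [Finset.mem_univ, Finset.mem_insert, Finset.mem_singleton, true_and, not_or] at ht
    obtain ⟨ht0, ht1⟩ := ht
    have h1t : 1 + t ≠ 0 := fun e => ht1 (by linear_combination e)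
    have hA : t ^ k ≠ 0 := pow_ne_zero _ ht0
    have hB : (1 + t) ^ k ≠ 0 := pow_ne_zero _ h1t
    have e := hcon t ht0 h1t
    rw [Polynomial.mem_roots hN, Polynomial.IsRoot.def]
    simp only [N, Polynomial.eval_sub, Polynomial.eval_mul, Polynomial.eval_pow, Polynomial.eval_add,
      Polynomial.eval_one, Polynomial.eval_X]
    field_simp at e
    linear_combination e
  have hcard : (Finset.univ \ {0, -1} : Finset K).card ≤ k + k :=
    (Multiset.card_le_card (Multiset.le_iff_subset (Finset.univ \ {0, -1} : Finset K).nodup |>.2 hroot)).trans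
      ((Polynomial.card_roots' N).trans hdeg)
  have h2 := Finset.le_card_sdiff ({0, -1} : Finset K) Finset.univ
  rw [Finset.card_univ, hK] at h2
  have h3 : ({0, -1} : Finset K).card ≤ 2 := Finset.card_le_two
  obtain ⟨j, rfl⟩ : ∃ j, m = j + 1 := ⟨m - 1, by omega⟩
  have h4 : 1 ≤ 3 ^ j := Nat.one_le_pow _ _ (by norm_num)
  have h5 : 3 ^ (2 * (j + 1) + 1) = 27 * (3 ^ j * 3 ^ j) := by
    rw [show 2 * (j + 1) + 1 = j + j + 3 by ring, pow_add, pow_add]; ring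
  have h6 : 3 ^ (j + 1) = 3 * 3 ^ j := by rw [pow_succ]; ring
  have h7 : 3 ^ j ≤ 3 ^ j * 3 ^ j := Nat.le_mul_self _
  omega

/-- The derived subgroup of the preimage meets the kernel trivially. -/
theorem derived_meets_ker (hm : 1 ≤ m) {Γ : Type*} [Group Γ] (σ : Γ →* GR K m)
    (hσ : Function.Surjective σ) (hc : σ.ker ≤ Subgroup.center Γ) {z : Γ} (hz : σ z = 1)
    (hzd : z ∈ ⁅(uSub K m).comap σ, (uSub K m).comap σ⁆) : z = 1 := by
  classical
  obtain ⟨T⟩ := exists_tor θ hθ hK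
  obtain ⟨z₀, hz₀, -, -⟩ := exists_generator (m := m) hK hm
  let u : K → K → K → Γ := fun t a b => Function.surjInv hσ (uR m t a b)
  have hu : ∀ t a b, σ (u t a b) = uR m t a b := fun t a b => Function.surjInv_eq hσ _
  let tt : Kˣ → Γ := fun h => Function.surjInv hσ (T.hom h)
  have htt : ∀ h, σ (tt h) = T.hom h := fun h => Function.surjInv_eq hσ _
  have hcen : ∀ x, σ x = 1 → ∀ g, g * x = x * g := fun x hx => Subgroup.mem_center_iff.1 (hc hx)
  have hconj : ∀ (h : Kˣ) t a b, σ (tt h * u t a b * (tt h)⁻¹) =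
      σ (u ((h : K) * t) ((h : K) ^ (3 * 3 ^ m + 1) * a) ((h : K) ^ (3 * 3 ^ m + 2) * b)) := fun h t a b => by
    rw [map_mul, map_mul, map_inv, htt, hu, hu, T.conj]
  have hcc : ∀ (g x y : Γ), ⁅g * x * g⁻¹, g * y * g⁻¹⁆ = g * ⁅x, y⁆ * g⁻¹ := fun g x y => by
    simp only [commutatorElement_def]; group
  have hinv' : ∀ (h : Kˣ) t a b t' a' b', σ ⁅u t a b, u t' a' b'⁆ = 1 →
      ⁅u ((h : K) * t) ((h : K) ^ (3 * 3 ^ m + 1) * a) ((h : K) ^ (3 * 3 ^ m + 2) * b),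
        u ((h : K) * t') ((h : K) ^ (3 * 3 ^ m + 1) * a') ((h : K) ^ (3 * 3 ^ m + 2) * b')⁆ =
      ⁅u t a b, u t' a' b'⁆ := by
    intro h t a b t' a' b' h1
    rw [comm_congr σ hc (hconj h t a b).symm (hconj h t' a' b').symm, hcc, hcen _ h1, mul_inv_cancel_right]
  letI : CommGroup ↥(Subgroup.center Γ) :=
    { (inferInstance : Group ↥(Subgroup.center Γ)) with
      mul_comm := fun x y => Subtype.ext (Subgroup.mem_center_iff.1 y.2 x.1) }
  obtain ⟨tg, htg0, htg1, htg⟩ := exists_good (m := m) hK hm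
  have h3 : (3 : K) = 0 := CharP.ofNat_eq_zero K 3
  have hev : Even (3 * 3 ^ m + 1) := ((by decide : Odd 3).mul ((by decide : Odd 3).pow)).add_one
  have hod : Odd (3 * 3 ^ m + 2) := hev.add_one
  have hzm : ∀ a b a' b', uR m (0 : K) a b * uR m 0 a' b' = uR m 0 (a + a') (b + b') :=
    fun a b a' b' => uR_zero_mul θ hθ hK a b a' b'
  -- commutators inside the abelian part
  have hσW : ∀ a b a' b', σ ⁅u 0 a b, u 0 a' b'⁆ = 1 := fun a b a' b' => by
    rw [map_commutatorElement, hu, hu, commutatorElement_eq_one_iff_mul_comm, hzm, hzm, add_comm a,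
      add_comm b]
  have hW : ∀ a b a' b', ⁅u 0 a b, u 0 a' b'⁆ = 1 := by
    let B : K → K → K → K → Subgroup.center Γ := fun a b a' b' =>
      ⟨⁅u 0 a b, u 0 a' b'⁆, hc (hσW a b a' b')⟩
    have hl : ∀ a b c d a' b', B (a + c) (b + d) a' b' = B a b a' b' * B c d a' b' := by
      intro a b c d a' b'
      apply Subtype.ext
      show ⁅u 0 (a + c) (b + d), u 0 a' b'⁆ = ⁅u 0 a b, u 0 a' b'⁆ * ⁅u 0 c d, u 0 a' b'⁆
      rw [comm_congr σ hc (x := u 0 (a + c) (b + d)) (x' := u 0 a b * u 0 c d)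
        (by rw [map_mul, hu, hu, hu, hzm]) rfl, comm_mul_left, hcen _ (hσW c d a' b'),
        mul_inv_cancel_right, hcen _ (hσW c d a' b')]
    have hr : ∀ a b a' b' c d, B a b (a' + c) (b' + d) = B a b a' b' * B a b c d := by
      intro a b a' b' c d
      have e : ∀ p q p' q', B p' q' p q = (B p q p' q')⁻¹ := fun p q p' q' =>
        Subtype.ext (commutatorElement_inv (u 0 p q) (u 0 p' q')).symm
      rw [e (a' + c) (b' + d) a b, hl, mul_inv, ← e, ← e]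
    have hBinv : ∀ (h : Kˣ) a b a' b', B ((h : K) ^ (3 * 3 ^ m + 1) * a) ((h : K) ^ (3 * 3 ^ m + 2) * b)
        ((h : K) ^ (3 * 3 ^ m + 1) * a') ((h : K) ^ (3 * 3 ^ m + 2) * b') = B a b a' b' := by
      intro h a b a' b'
      apply Subtype.ext
      have := hinv' h 0 a b 0 a' b' (hσW a b a' b')
      simp only [mul_zero] at this
      exact this
    have hl1 : ∀ a c a', B (a + c) 0 a' 0 = B a 0 a' 0 * B c 0 a' 0 := fun a c a' => by
      have := hl a 0 c 0 a' 0; rwa [add_zero] at this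
    have hr1 : ∀ a a' c, B a 0 (a' + c) 0 = B a 0 a' 0 * B a 0 c 0 := fun a a' c => by
      have := hr a 0 a' 0 c 0; rwa [add_zero] at this
    have hl2 : ∀ b d b', B 0 (b + d) 0 b' = B 0 b 0 b' * B 0 d 0 b' := fun b d b' => by
      have := hl 0 b 0 d 0 b'; rwa [add_zero] at this
    have hr2 : ∀ b b' d, B 0 b 0 (b' + d) = B 0 b 0 b' * B 0 b 0 d := fun b b' d => by
      have := hr 0 b 0 b' 0 d; rwa [add_zero] at this
    obtain ⟨t, ht0, ht1, ht2⟩ : ∃ t : K, t ≠ 0 ∧ 1 + t ≠ 0 ∧ t ≠ 1 :=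
      ⟨(z₀ : K), z₀.ne_zero, fun e => hz₀ (Units.ext (by
          rw [Units.val_pow_eq_pow_val, show (z₀ : K) = -1 by linear_combination e]; norm_num)),
        fun e => hz₀ (by rw [show z₀ = 1 from Units.ext e, one_pow])⟩
    have huv : ∀ a b', B a 0 0 b' = 1 := fun a b' => by
      refine pair_sign (β := fun a b' => B a 0 0 b') (fun a b b' => ?_) (fun a b => ?_) a b'
      · have := hr a 0 0 b 0 b'; rwa [add_zero] at this
      · have := hBinv (-1) a 0 0 b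
        simpa [hev.neg_one_pow, hod.neg_one_pow] using this
    have hvu : ∀ b a', B 0 b a' 0 = 1 := fun b a' => by
      have : B 0 b a' 0 = (B a' 0 0 b)⁻¹ :=
        Subtype.ext (commutatorElement_inv (u 0 a' 0) (u 0 0 b)).symm
      rw [this, huv, inv_one]
    have hsurj2 : ∀ x : K, x ≠ 0 → ∃ h : Kˣ, (h : K) ^ (3 * 3 ^ m + 2) = x := by
      intro x hx
      have hi : Function.Injective fun h : Kˣ => h ^ (3 * 3 ^ m + 2) := fun p q e => by
        refine div_eq_one.1 (units_eq_one hK (p / q) ?_)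
        rw [← Units.val_pow_eq_pow_val, div_pow, show p ^ _ = q ^ _ from e, div_self', Units.val_one]
      obtain ⟨h, hh⟩ := Finite.injective_iff_surjective.1 hi (Units.mk0 x hx)
      exact ⟨h, congrArg Units.val hh⟩
    have hsq : ∀ c : K, c ≠ 0 → ∃ h : Kˣ, (h : K) ^ (3 * 3 ^ m + 1) = c * c := by
      intro c hc0
      refine ⟨Units.mk0 c hc0 ^ (3 * 3 ^ m - 1), ?_⟩
      have h1 : c ^ (Fintype.card K - 1) = 1 := FiniteField.pow_card_sub_one_eq_one c hc0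
      have he : 1 ≤ 3 ^ m := Nat.one_le_pow _ _ (by norm_num)
      have key : (3 * 3 ^ m - 1) * (3 * 3 ^ m + 1) = 3 * (Fintype.card K - 1) + 2 := by
        rw [hK, show 3 ^ (2 * m + 1) = 3 * (3 ^ m * 3 ^ m) by rw [pow_succ, two_mul m, pow_add]; ring]
        generalize 3 ^ m = e at he ⊢
        obtain ⟨k, rfl⟩ : ∃ k, e = k + 1 := ⟨e - 1, by omega⟩
        rw [show 3 * (k + 1) - 1 = 3 * k + 2 by omega,
          show 3 * ((k + 1) * (k + 1)) - 1 = 3 * k * k + 6 * k + 2 by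
            rw [show 3 * ((k + 1) * (k + 1)) = 3 * k * k + 6 * k + 3 by ring]; omega]
        ring
      rw [Units.val_pow_eq_pow_val, Units.val_mk0, ← pow_mul, key, pow_add, mul_comm 3, pow_mul, h1,
        one_pow, one_mul, pow_two]
    have hsurj1 : ∀ x : K, x ≠ 0 → ∃ h : Kˣ, (h : K) ^ (3 * 3 ^ m + 1) = x ∨ (h : K) ^ (3 * 3 ^ m + 1) = -x := by
      intro x hx
      obtain ⟨c, hc⟩ | ⟨c, hc⟩ : IsSquare x ∨ IsSquare (-x) := by
        rcases Classical.em (IsSquare x) with h | h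
        · exact Or.inl h
        · refine Or.inr ?_
          have hn1 : ¬ IsSquare (-1 : K) := by
            rw [FiniteField.isSquare_neg_one_iff, hK, not_not]
            rw [pow_succ, pow_mul, Nat.mul_mod, Nat.pow_mod]; norm_num
          have hne : quadraticChar K (-x) = 1 := by
            rw [show (-x) = (-1) * x by ring, map_mul, quadraticChar_neg_one_iff_not_isSquare.2 hn1,
              quadraticChar_neg_one_iff_not_isSquare.2 h]
            norm_num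
          exact (quadraticChar_one_iff_isSquare (neg_ne_zero.2 hx)).1 hne
      · obtain ⟨h, hh⟩ := hsq c (by rintro rfl; simp at hc; exact hx hc)
        exact ⟨h, Or.inl (by rw [hh, hc])⟩
      · obtain ⟨h, hh⟩ := hsq c (by rintro rfl; simp at hc; exact hx hc)
        exact ⟨h, Or.inr (by rw [hh, hc])⟩
    have huu : ∀ a a', B a 0 a' 0 = 1 := fun a a' => by
      refine pair_linear (β := fun a a' => B a 0 a' 0) hl1 hr1 (fun x p q hx => ?_) t ht0 ht1 ht2 a a'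
      obtain ⟨h, hh | hh⟩ := hsurj1 x hx
      · have := hBinv h p 0 q 0
        simpa [hh] using this
      · have := hBinv h p 0 q 0
        simp only [mul_zero, hh] at this
        have n1 : ∀ a b, B (-a) 0 b 0 = (B a 0 b 0)⁻¹ := fun a b => eq_inv_of_mul_eq_one_left (by
          rw [← hl1, neg_add_cancel]; exact pair_zero_left (β := fun a a' => B a 0 a' 0) hl1 b)
        have n2 : ∀ a b, B a 0 (-b) 0 = (B a 0 b 0)⁻¹ := fun a b => eq_inv_of_mul_eq_one_left (by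
          rw [← hr1, neg_add_cancel]; exact pair_zero_right (β := fun a a' => B a 0 a' 0) hr1 a)
        rw [neg_mul, neg_mul, n1, n2, inv_inv] at this
        exact this
    have hvv : ∀ b b', B 0 b 0 b' = 1 := fun b b' => by
      refine pair_linear (β := fun b b' => B 0 b 0 b') hl2 hr2 (fun x p q hx => ?_) t ht0 ht1 ht2 b b'
      obtain ⟨h, hh⟩ := hsurj2 x hx
      have := hBinv h 0 p 0 q
      simpa [hh] using this
    intro a b a' b'
    have : B a b a' b' = 1 := by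
      have e1 := hl a 0 0 b a' b'
      rw [add_zero, zero_add] at e1
      have e2 := hr a 0 a' 0 0 b'
      have e3 := hr 0 b a' 0 0 b'
      rw [add_zero, zero_add] at e2 e3
      rw [e1, e2, e3, huu, huv, hvu, hvv]
      simp
    exact congrArg Subtype.val this
  -- the elements with vanishing second coordinate are central
  have hσtv : ∀ t b, σ ⁅u t 0 0, u 0 0 b⁆ = 1 := fun t b => by
    rw [map_commutatorElement, hu, hu, commutatorElement_eq_one_iff_mul_comm, uR_mul θ hθ hK,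
      uR_mul θ hθ hK]
    simp
  have htv : ∀ t b, ⁅u t 0 0, u 0 0 b⁆ = 1 := by
    let β : K → K → Subgroup.center Γ := fun t b => ⟨⁅u t 0 0, u 0 0 b⁆, hc (hσtv t b)⟩
    have hr : ∀ t b b', β t (b + b') = β t b * β t b' := by
      intro t b b'
      apply Subtype.ext
      show ⁅u t 0 0, u 0 0 (b + b')⁆ = ⁅u t 0 0, u 0 0 b⁆ * ⁅u t 0 0, u 0 0 b'⁆
      rw [comm_congr σ hc (y := u 0 0 (b + b')) (y' := u 0 0 b * u 0 0 b') rfl
        (by rw [map_mul, hu, hu, hu, hzm, add_zero]), comm_mul_right, hcen _ (hσtv t b'),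
        mul_inv_cancel_right]
    have hl : ∀ t t' b, β (t + t') b = β t b * β t' b := by
      intro t t' b
      apply Subtype.ext
      show ⁅u (t + t') 0 0, u 0 0 b⁆ = ⁅u t 0 0, u 0 0 b⁆ * ⁅u t' 0 0, u 0 0 b⁆
      obtain ⟨p, q, e⟩ : ∃ p q, uR m (t + t') 0 0 = uR m t 0 0 * uR m t' 0 0 * uR m 0 p q := by
        refine ⟨(t' ^ 3 ^ m) ^ 3 * t, (t' ^ 3 ^ m) ^ 3 * t ^ 2 + t' * -((t' ^ 3 ^ m) ^ 3 * t), ?_⟩
        rw [uR_mul θ hθ hK, uR_mul θ hθ hK]
        congr 1 <;> simp <;> ring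
      rw [comm_congr σ hc (x := u (t + t') 0 0) (x' := u t 0 0 * u t' 0 0 * u 0 p q)
          (by rw [map_mul, map_mul, hu, hu, hu, hu, e]) rfl,
        comm_mul_left, hW, mul_one, mul_inv_cancel, one_mul, comm_mul_left, hcen _ (hσtv t' b),
        mul_inv_cancel_right, hcen _ (hσtv t' b)]
    intro t b
    have := pair_weight hl hr (fun x => x ^ (3 * 3 ^ m + 2)) (fun x hx => pow_ne_zero _ hx)
      (fun x p q hx => by
        apply Subtype.ext
        show ⁅u (x * p) 0 0, u 0 0 (x ^ (3 * 3 ^ m + 2) * q)⁆ = ⁅u p 0 0, u 0 0 q⁆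
        have := hinv' (Units.mk0 x hx) p 0 0 0 0 q (hσtv p q)
        simpa using this) tg htg0 htg1 htg t b
    exact congrArg Subtype.val this
  -- the abelian part
  let Ws : Subgroup (GR K m) :=
    { carrier := {g | ∃ a b, g = uR m 0 a b}
      one_mem' := ⟨0, 0, uR_one.symm⟩
      mul_mem' := by rintro _ _ ⟨a, b, rfl⟩ ⟨a', b', rfl⟩; exact ⟨_, _, hzm a b a' b'⟩
      inv_mem' := by
        rintro _ ⟨a, b, rfl⟩
        exact ⟨-a, -b, inv_eq_of_mul_eq_one_right (by rw [hzm, add_neg_cancel, add_neg_cancel, uR_one])⟩ }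
  let W := Ws.comap σ
  have hWab : ∀ x ∈ W, ∀ y ∈ W, x * y = y * x := by
    rintro x ⟨a, b, hx⟩ y ⟨a', b', hy⟩
    rw [← commutatorElement_eq_one_iff_mul_comm,
      comm_congr σ hc (x' := u 0 a b) (y' := u 0 a' b') (by rw [hx, hu]) (by rw [hy, hu]), hW]
  letI : CommGroup ↥W :=
    { (inferInstance : Group ↥W) with mul_comm := fun x y => Subtype.ext (hWab _ x.2 _ y.2) }
  have hcW : ∀ (h : Kˣ) (v : Γ), v ∈ W → tt h * v * (tt h)⁻¹ ∈ W := by
    rintro h v ⟨a, b, hv⟩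
    refine ⟨(h : K) ^ (3 * 3 ^ m + 1) * a, (h : K) ^ (3 * 3 ^ m + 2) * b, ?_⟩
    rw [map_mul, map_mul, map_inv, htt, hv, T.conj, mul_zero]
  let cj : Kˣ → ↥W →* ↥W := fun h =>
    { toFun := fun v => ⟨tt h * v.1 * (tt h)⁻¹, hcW h _ v.2⟩
      map_one' := by apply Subtype.ext; show tt h * 1 * (tt h)⁻¹ = 1; group
      map_mul' := fun v w => by
        apply Subtype.ext
        show tt h * (v.1 * w.1) * (tt h)⁻¹ = tt h * v.1 * (tt h)⁻¹ * (tt h * w.1 * (tt h)⁻¹)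
        group }
  let φ : ↥W →* ↥W := cj z₀ / MonoidHom.id _
  have hcomm : ∀ h v, φ (cj h v) = cj h (φ v) := by
    intro h v
    show cj z₀ (cj h v) / cj h v = cj h (cj z₀ v / v)
    rw [map_div]
    congr 1
    apply Subtype.ext
    show tt z₀ * (tt h * v.1 * (tt h)⁻¹) * (tt z₀)⁻¹ = tt h * (tt z₀ * v.1 * (tt z₀)⁻¹) * (tt h)⁻¹
    calc _ = (tt z₀ * tt h) * v.1 * (tt z₀ * tt h)⁻¹ := by group
      _ = (tt h * tt z₀) * v.1 * (tt h * tt z₀)⁻¹ := conj_congr σ hc (by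
          rw [map_mul, map_mul, htt, htt, ← map_mul, ← map_mul, mul_comm]) _
      _ = _ := by group
  have hneu : (z₀ : K) ^ (3 * 3 ^ m + 1) - 1 ≠ 0 := fun e =>
    hz₀ (units_sq_eq_one hK z₀ (sub_eq_zero.1 e))
  have hnev : (z₀ : K) ^ (3 * 3 ^ m + 2) - 1 ≠ 0 := fun e =>
    hz₀ (by rw [units_eq_one hK z₀ (sub_eq_zero.1 e), one_pow])
  have hφσ : ∀ (v : ↥W) a b, σ v.1 = uR m 0 a b → σ (φ v).1 =
      uR m 0 (((z₀ : K) ^ (3 * 3 ^ m + 1) - 1) * a) (((z₀ : K) ^ (3 * 3 ^ m + 2) - 1) * b) := by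
    intro v a b hv
    show σ (tt z₀ * v.1 * (tt z₀)⁻¹ / v.1) = _
    rw [map_div, map_mul, map_mul, map_inv, htt, hv, T.conj, div_eq_iff_eq_mul, hzm, mul_zero]
    congr 1 <;> ring
  have hcjker : ∀ h (v : ↥W), σ v.1 = 1 → cj h v = v := fun h v hv => Subtype.ext (by
    show tt h * v.1 * (tt h)⁻¹ = v.1
    rw [hcen _ hv, mul_inv_cancel_right])
  have hLZ : ∀ x ∈ φ.range, σ x.1 = 1 → x = 1 := by
    rintro _ ⟨v, rfl⟩ hx
    obtain ⟨a, b, hv⟩ := v.2
    rw [hφσ v a b hv, ← uR_one (K := K) (m := m)] at hx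
    obtain ⟨-, ha, hb⟩ := uR_inj hx
    rw [(mul_eq_zero.1 ha).resolve_left hneu, (mul_eq_zero.1 hb).resolve_left hnev, uR_one] at hv
    show cj z₀ v / v = 1
    rw [hcjker _ _ hv, div_self']
  have hTinv : ∀ h (y : ↥W), cj h y / y ∈ φ.range := by
    intro h y
    obtain ⟨a, b, hy⟩ := y.2
    let v : ↥W := ⟨u 0 (a / ((z₀ : K) ^ (3 * 3 ^ m + 1) - 1)) (b / ((z₀ : K) ^ (3 * 3 ^ m + 2) - 1)),
      ⟨_, _, hu _ _ _⟩⟩
    have hker : σ ((φ v)⁻¹ * y : ↥W).1 = 1 := by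
      show σ ((φ v).1⁻¹ * y.1) = 1
      rw [map_mul, map_inv, hφσ v _ _ (hu _ _ _), hy, mul_div_cancel₀ _ hneu, mul_div_cancel₀ _ hnev,
        inv_mul_cancel]
    refine ⟨cj h v / v, ?_⟩
    have e := hcjker h _ hker
    rw [map_mul, map_inv, inv_mul_eq_iff_eq_mul] at e
    rw [map_div, hcomm, e, mul_div_assoc, mul_div_cancel_right, ← div_eq_mul_inv]
  have hWmem : ∀ a b, u 0 a b ∈ W := fun a b => ⟨a, b, hu 0 a b⟩
  have hWc : ∀ (g : Γ) t a b, σ g = uR m t a b → ∀ v ∈ W, g * v * g⁻¹ ∈ W := by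
    intro g t a b hg v hv
    obtain ⟨c, d, hv⟩ := hv
    show σ (g * v * g⁻¹) ∈ Ws
    refine ⟨c, d + t * c, ?_⟩
    rw [map_mul, map_mul, map_inv, hg, hv, mul_inv_eq_iff_eq_mul, uR_mul θ hθ hK, uR_mul θ hθ hK]
    congr 1 <;> simp <;> ring
  have hZc : ∀ (g : Γ) t a b, σ g = uR m t a b → ∀ d, ⁅g, u 0 0 d⁆ = 1 := by
    intro g t a b hg d
    rw [comm_congr σ hc (x' := u t 0 0 * u 0 a b) (by rw [hg, map_mul, hu, hu, uR_split θ hθ hK]) rfl,
      comm_mul_left, hW, mul_one, mul_inv_cancel, one_mul, htv]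
  have htuW : ∀ t a, ⁅u t 0 0, u 0 a 0⁆ ∈ W ∧ σ ⁅u t 0 0, u 0 a 0⁆ = uR m 0 0 (t * a) := by
    intro t a
    have e : σ ⁅u t 0 0, u 0 a 0⁆ = uR m 0 0 (t * a) := by
      rw [map_commutatorElement, hu, hu, commutatorElement_def, mul_inv_eq_iff_eq_mul,
        mul_inv_eq_iff_eq_mul, uR_mul θ hθ hK, hzm, uR_mul θ hθ hK]
      congr 1 <;> simp <;> ring
    exact ⟨⟨_, _, e⟩, e⟩
  have hcentr : ∀ (g : Γ) t a b, σ g = uR m t a b → ∀ t' a', g * ⁅u t' 0 0, u 0 a' 0⁆ * g⁻¹ =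
      ⁅u t' 0 0, u 0 a' 0⁆ := by
    intro g t a b hg t' a'
    have h1 : ⁅g, ⁅u t' 0 0, u 0 a' 0⁆⁆ = 1 := by
      rw [comm_congr σ hc (y' := u 0 0 (t' * a')) (x := g) (x' := g) rfl (by rw [(htuW t' a').2, hu]),
        hZc g t a b hg]
    rw [commutatorElement_eq_one_iff_mul_comm] at h1
    rw [h1, mul_inv_cancel_right]
  let Q := ↥W ⧸ φ.range
  have hq2 : ∀ t a, (⟨⁅u t 0 0, u 0 a 0⁆, (htuW t a).1⟩ : ↥W) ∈ φ.range := by
    intro t a
    rw [← QuotientGroup.eq_one_iff]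
    let β : K → K → Q := fun t a => QuotientGroup.mk (⟨⁅u t 0 0, u 0 a 0⁆, (htuW t a).1⟩ : ↥W)
    have hr : ∀ t a a', β t (a + a') = β t a * β t a' := by
      intro t a a'
      show QuotientGroup.mk _ = QuotientGroup.mk _ * QuotientGroup.mk _
      rw [← QuotientGroup.mk_mul]
      congr 1
      apply Subtype.ext
      show ⁅u t 0 0, u 0 (a + a') 0⁆ = ⁅u t 0 0, u 0 a 0⁆ * ⁅u t 0 0, u 0 a' 0⁆
      rw [comm_congr σ hc (y := u 0 (a + a') 0) (y' := u 0 a 0 * u 0 a' 0) rfl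
        (by rw [map_mul, hu, hu, hu, hzm, add_zero]), comm_mul_right, hcentr _ _ _ _ (hu 0 a 0)]
    refine pair_sign (β := β) hr (fun t a => ?_) t a
    have hs : ∀ t a, β (-t) a = β t a := by
      intro t a
      show QuotientGroup.mk _ = QuotientGroup.mk _
      rw [QuotientGroup.eq]
      have hm' := φ.range.inv_mem (hTinv (-1) ⟨⁅u t 0 0, u 0 a 0⁆, (htuW t a).1⟩)
      rw [inv_div, div_eq_mul_inv, mul_comm] at hm'
      convert hm' using 2
      apply inv_inj.2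
      apply Subtype.ext
      show ⁅u (-t) 0 0, u 0 a 0⁆ = tt (-1) * ⁅u t 0 0, u 0 a 0⁆ * (tt (-1))⁻¹
      have e1 := hconj (-1) t 0 0
      have e2 := hconj (-1) 0 a 0
      simp [hev.neg_one_pow, hod.neg_one_pow] at e1 e2
      rw [← hcc, comm_congr σ hc (x := u (-t) 0 0) (x' := tt (-1) * u t 0 0 * (tt (-1))⁻¹)
        (y := u 0 a 0) (y' := tt (-1) * u 0 a 0 * (tt (-1))⁻¹) (by simpa using e1.symm) (by simpa using e2.symm)]
    have hl : ∀ t t' a, β (t + t') a = β t a * β t' a := by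
      intro t t' a
      rw [mul_comm]
      show QuotientGroup.mk _ = QuotientGroup.mk _ * QuotientGroup.mk _
      rw [← QuotientGroup.mk_mul]
      congr 1
      apply Subtype.ext
      show ⁅u (t + t') 0 0, u 0 a 0⁆ = ⁅u t' 0 0, u 0 a 0⁆ * ⁅u t 0 0, u 0 a 0⁆
      obtain ⟨p, q, e⟩ : ∃ p q, uR m (t + t') 0 0 = uR m t 0 0 * uR m t' 0 0 * uR m 0 p q := by
        refine ⟨(t' ^ 3 ^ m) ^ 3 * t, (t' ^ 3 ^ m) ^ 3 * t ^ 2 + t' * -((t' ^ 3 ^ m) ^ 3 * t), ?_⟩
        rw [uR_mul θ hθ hK, uR_mul θ hθ hK]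
        congr 1 <;> simp <;> ring
      rw [comm_congr σ hc (x := u (t + t') 0 0) (x' := u t 0 0 * u t' 0 0 * u 0 p q)
          (by rw [map_mul, map_mul, hu, hu, hu, hu, e]) rfl,
        comm_mul_left, hW, mul_one, mul_inv_cancel, one_mul, comm_mul_left, hcentr _ _ _ _ (hu t 0 0)]
    have n1 : β (-t) a = (β t a)⁻¹ := eq_inv_of_mul_eq_one_left (by
      rw [← hl, neg_add_cancel]; exact pair_zero_left (β := β) hl a)
    have n2 : β t (-a) = (β t a)⁻¹ := eq_inv_of_mul_eq_one_left (by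
      rw [← hr, neg_add_cancel]; exact pair_zero_right (β := β) hr t)
    rw [n2, ← n1, hs]
  have hnorm : ∀ (g : Γ) t a b, σ g = uR m t a b → ∀ x : ↥W, x ∈ φ.range →
      ∃ y ∈ φ.range, y.1 = g * x.1 * g⁻¹ := by
    intro g t a b hg x hx
    obtain ⟨c, d, hx'⟩ := x.2
    have e : g * x.1 * g⁻¹ = ⁅g, x.1⁆ * x.1 := by rw [commutatorElement_def, inv_mul_cancel_right]
    have h1 : ⁅g, x.1⁆ = ⁅u t 0 0, u 0 c 0⁆ := by
      rw [comm_congr σ hc (x' := u t 0 0 * u 0 a b) (y' := u 0 c 0 * u 0 0 d)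
        (by rw [hg, map_mul, hu, hu, uR_split θ hθ hK])
        (by rw [hx', map_mul, hu, hu, hzm, add_zero, zero_add]),
        comm_mul_right, hZc _ t a b (by rw [map_mul, hu, hu, ← uR_split θ hθ hK]), mul_one,
        mul_inv_cancel, mul_one, comm_mul_left, hW, mul_one, mul_inv_cancel, one_mul]
    exact ⟨_, mul_mem (hq2 t c) hx, by rw [e, h1]; rfl⟩
  have hUW : ∀ t t', σ ⁅u t 0 0, u t' 0 0⁆ ∈ Ws := by
    intro t t'
    rw [map_commutatorElement, hu, hu]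
    obtain ⟨p, q, r, e⟩ := (mem_uSub θ hθ hK).1 (Subgroup.commutator_le_self (uSub K m)
      (Subgroup.commutator_mem_commutator (uR_mem_uSub (m := m) t 0 0) (uR_mem_uSub (m := m) t' 0 0)))
    rw [e]
    rw [commutatorElement_def, mul_inv_eq_iff_eq_mul, mul_inv_eq_iff_eq_mul, uR_mul θ hθ hK,
      uR_mul θ hθ hK, uR_mul θ hθ hK] at e
    have := (uR_inj e).1
    exact ⟨q, r, by rw [show p = 0 by linear_combination -this]⟩
  have hq3 : ∀ t t', (⟨⁅u t 0 0, u t' 0 0⁆, hUW t t'⟩ : ↥W) ∈ φ.range := by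
    intro t t'
    rw [← QuotientGroup.eq_one_iff]
    let β : K → K → Q := fun t t' => QuotientGroup.mk (⟨⁅u t 0 0, u t' 0 0⁆, hUW t t'⟩ : ↥W)
    have hl : ∀ t1 t2 t', β (t1 + t2) t' = β t1 t' * β t2 t' := by
      intro t1 t2 t'
      obtain ⟨p, q, e⟩ : ∃ p q, uR m (t1 + t2) 0 0 = uR m t1 0 0 * uR m t2 0 0 * uR m 0 p q := by
        refine ⟨(t2 ^ 3 ^ m) ^ 3 * t1, (t2 ^ 3 ^ m) ^ 3 * t1 ^ 2 + t2 * -((t2 ^ 3 ^ m) ^ 3 * t1), ?_⟩
        rw [uR_mul θ hθ hK, uR_mul θ hθ hK]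
        congr 1 <;> simp <;> ring
      have ev : ⁅u 0 p q, u t' 0 0⁆ = ⁅u t' 0 0, u 0 p 0⁆⁻¹ := by
        rw [commutatorElement_inv, comm_congr σ hc (x := u 0 p q) (x' := u 0 p 0 * u 0 0 q)
          (by rw [map_mul, hu, hu, hu, hzm, add_zero, zero_add]) rfl,
          comm_mul_left, ← commutatorElement_inv (u t' 0 0) (u 0 0 q), htv, inv_one, mul_one,
          mul_inv_cancel, one_mul]
      obtain ⟨w1, hw1, ew1⟩ := hnorm (u t1 0 0 * u t2 0 0) (t1 + t2) (-((t2 ^ 3 ^ m) ^ 3 * t1))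
        (-((t2 ^ 3 ^ m) ^ 3 * t1 ^ 2) - t2 * -((t2 ^ 3 ^ m) ^ 3 * t1))
        (by rw [map_mul, hu, hu, uR_mul θ hθ hK]; congr 1 <;> simp)
        (⟨⁅u t' 0 0, u 0 p 0⁆, (htuW t' p).1⟩⁻¹ : ↥W) (inv_mem (hq2 t' p))
      obtain ⟨c, d, ed⟩ := hUW t2 t'
      have hc2 : u t1 0 0 * ⁅u t2 0 0, u t' 0 0⁆ * (u t1 0 0)⁻¹ =
          ⁅u t1 0 0, u 0 c 0⁆ * ⁅u t2 0 0, u t' 0 0⁆ := by
        rw [show u t1 0 0 * ⁅u t2 0 0, u t' 0 0⁆ * (u t1 0 0)⁻¹ =
            ⁅u t1 0 0, ⁅u t2 0 0, u t' 0 0⁆⁆ * ⁅u t2 0 0, u t' 0 0⁆ by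
              rw [commutatorElement_def (u t1 0 0) ⁅u t2 0 0, u t' 0 0⁆, inv_mul_cancel_right], comm_congr σ hc (x := u t1 0 0) (y := ⁅u t2 0 0, u t' 0 0⁆)
          (y' := u 0 c 0 * u 0 0 d) rfl (by rw [ed, map_mul, hu, hu, hzm, add_zero, zero_add]),
          comm_mul_right, htv, mul_one, mul_inv_cancel, mul_one]
      have key : (⟨⁅u (t1 + t2) 0 0, u t' 0 0⁆, hUW (t1 + t2) t'⟩ : ↥W) =
          w1 * ((⟨⁅u t1 0 0, u 0 c 0⁆, (htuW t1 c).1⟩ : ↥W) * ⟨⁅u t2 0 0, u t' 0 0⁆, hUW t2 t'⟩ *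
            ⟨⁅u t1 0 0, u t' 0 0⁆, hUW t1 t'⟩) := by
        apply Subtype.ext
        show ⁅u (t1 + t2) 0 0, u t' 0 0⁆ = w1.1 * (⁅u t1 0 0, u 0 c 0⁆ * ⁅u t2 0 0, u t' 0 0⁆ *
          ⁅u t1 0 0, u t' 0 0⁆)
        rw [comm_congr σ hc (x := u (t1 + t2) 0 0) (x' := u t1 0 0 * u t2 0 0 * u 0 p q)
          (by rw [map_mul, map_mul, hu, hu, hu, hu, e]) rfl, comm_mul_left, comm_mul_left, ev, hc2, ew1]
        rfl
      show QuotientGroup.mk _ = QuotientGroup.mk _ * QuotientGroup.mk _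
      rw [key, QuotientGroup.mk_mul, QuotientGroup.mk_mul, QuotientGroup.mk_mul,
        (QuotientGroup.eq_one_iff w1).2 hw1, (QuotientGroup.eq_one_iff _).2 (hq2 t1 c), one_mul,
        one_mul, mul_comm]
    have hr : ∀ t a b, β t (a + b) = β t a * β t b := by
      intro t a b
      have e : ∀ p q, β q p = (β p q)⁻¹ := fun p q => by
        show QuotientGroup.mk _ = (QuotientGroup.mk _)⁻¹
        rw [← QuotientGroup.mk_inv]
        congr 1
        exact Subtype.ext (commutatorElement_inv (u p 0 0) (u q 0 0)).symm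
      rw [e (a + b) t, hl, mul_inv, ← e a t, ← e b t]
    refine pair_linear (β := β) hl hr (fun x p q hx => ?_) (z₀ : K) z₀.ne_zero
      (fun e => hz₀ (Units.ext (by
        rw [Units.val_pow_eq_pow_val, show (z₀ : K) = -1 by linear_combination e]; norm_num)))
      (fun e => hz₀ (by rw [show z₀ = 1 from Units.ext e, one_pow])) t t'
    show QuotientGroup.mk _ = QuotientGroup.mk _
    rw [QuotientGroup.eq]
    set h := Units.mk0 x hx
    have hm' := φ.range.inv_mem (hTinv h ⟨⁅u p 0 0, u q 0 0⁆, hUW p q⟩)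
    rw [inv_div, div_eq_mul_inv, mul_comm] at hm'
    convert hm' using 2
    apply inv_inj.2
    apply Subtype.ext
    show ⁅u (x * p) 0 0, u (x * q) 0 0⁆ = tt h * ⁅u p 0 0, u q 0 0⁆ * (tt h)⁻¹
    rw [← hcc]
    exact comm_congr σ hc (by rw [hconj]; simp [h]) (by rw [hconj]; simp [h])
  let L : Subgroup Γ := φ.range.map W.subtype
  have hLn : ∀ (g : Γ) t a b, σ g = uR m t a b → ∀ x ∈ L, g * x * g⁻¹ ∈ L := by
    rintro g t a b hg _ ⟨x, hx, rfl⟩
    obtain ⟨y, hy, e⟩ := hnorm g t a b hg x hx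
    exact ⟨y, hy, e⟩
  have hder : ⁅(uSub K m).comap σ, (uSub K m).comap σ⁆ ≤ L := by
    rw [Subgroup.commutator_le]
    intro x hx y hy
    obtain ⟨t, a, b, hx⟩ := (mem_uSub θ hθ hK).1 hx
    obtain ⟨t', a', b', hy⟩ := (mem_uSub θ hθ hK).1 hy
    have hWZ : ∀ c d, σ (u 0 c 0 * u 0 0 d) = uR m 0 c d := fun c d => by
      rw [map_mul, hu, hu, hzm, add_zero, zero_add]
    rw [comm_congr σ hc (x' := u t 0 0 * u 0 a b) (y' := u t' 0 0 * u 0 a' b')
      (by rw [hx, map_mul, hu, hu, uR_split θ hθ hK]) (by rw [hy, map_mul, hu, hu, uR_split θ hθ hK]),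
      comm_mul_left]
    have hmix : ∀ s c d, ⁅u s 0 0, u 0 c d⁆ ∈ L := fun s c d => by
      rw [comm_congr σ hc (y := u 0 c d) (y' := u 0 c 0 * u 0 0 d) rfl (by rw [hu, hWZ]),
        comm_mul_right, htv, mul_one, mul_inv_cancel, mul_one]
      exact ⟨_, hq2 s c, rfl⟩
    refine mul_mem (hLn _ _ _ _ (hu t 0 0) _ ?_) ?_
    · rw [comm_mul_right, hW, mul_one, mul_inv_cancel, mul_one, ← commutatorElement_inv]
      exact inv_mem (hmix t' a b)
    · rw [comm_mul_right]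
      exact mul_mem ⟨_, hq3 t t', rfl⟩ (hLn _ _ _ _ (hu t' 0 0) _ (hmix t a' b'))
  obtain ⟨x, hx, rfl⟩ := hder hzd
  rw [hLZ x hx hz]; rfl

end Cfsg.Agent.Lib.ReeMult
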