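import Cfsg.Agent.Lib.ReeMult.Emb
import Cfsg.Agent.Lib.ReeMult.Three
import Cfsg.Agent.Lib.SchurMult.SylowTests
import Cfsg.Prelude.Def_KGroupFacts

/-! The Schur multiplier of the Ree groups of type `G₂` is trivial. -/

set_option autoImplicit false

namespace Cfsg.Agent.Lib.ReeMult

open Cfsg.Lie Cfsg.Agent.Lib Cfsg.Agent.Lib.Chev Cfsg.Agent.Lib.Chev.G2
open Cfsg.Agent.Lib.ReeAut

universe u v

theorem singer_eight {G : Type*} [Group G] [Finite G] (S : Subgroup G) (hS : Nat.card S = 8)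
    (hsq : ∀ x ∈ S, x * x = 1) (hC : Subgroup.centralizer (S : Set G) = S)
    (hN : Nat.card (Subgroup.normalizer (S : Set G)) = 168) :
    ∃ e₀ e₁ e₂ g : G, Commute e₀ e₁ ∧ Commute e₀ e₂ ∧ Commute e₁ e₂ ∧ g * e₀ * g⁻¹ = e₁ ∧
      g * e₁ * g⁻¹ = e₂ ∧ g * e₂ * g⁻¹ = e₀ * e₁ ∧ Subgroup.closure ({e₀, e₁, e₂} : Set G) = S := by
  classical
  haveI := Fintype.ofFinite ↥S
  have hab : ∀ x ∈ S, ∀ y ∈ S, x * y = y * x := fun x hx y hy => by
    calc x * y = (x * y)⁻¹ := (inv_eq_of_mul_eq_one_right (hsq _ (mul_mem hx hy))).symm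
      _ = y⁻¹ * x⁻¹ := mul_inv_rev x y
      _ = y * x := by
          rw [inv_eq_of_mul_eq_one_right (hsq x hx), inv_eq_of_mul_eq_one_right (hsq y hy)]
  haveI : Fact (Nat.Prime 7) := ⟨by norm_num⟩
  obtain ⟨g₀, hg₀⟩ := exists_prime_orderOf_dvd_card' (G := Subgroup.normalizer (S : Set G)) 7
    (by rw [hN]; norm_num)
  set g : G := (g₀ : G)
  have hgo : orderOf g = 7 := by rw [Subgroup.orderOf_coe, hg₀]
  have hgS : g ∉ S := fun h => by
    have := orderOf_dvd_natCard (⟨g, h⟩ : S)
    rw [Subgroup.orderOf_mk, hgo, hS] at this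
    omega
  have hmem : ∀ x, x ∈ S ↔ g * x * g⁻¹ ∈ S := fun x => Subgroup.mem_normalizer_iff.1 g₀.2 x
  let c : ↥S ≃* ↥S :=
    { toFun := fun x => ⟨g * x * g⁻¹, (hmem _).1 x.2⟩
      invFun := fun x => ⟨g⁻¹ * x * g, (hmem _).2 (by simp [mul_assoc])⟩
      left_inv := fun x => Subtype.ext (by simp [mul_assoc])
      right_inv := fun x => Subtype.ext (by simp [mul_assoc])
      map_mul' := fun x y => Subtype.ext (by simp [mul_assoc]) }
  let cp : MulAut ↥S := c
  have hc7 : cp ^ 7 = 1 := by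
    have key : ∀ k : ℕ, ∀ x : ↥S, ((cp ^ k) x : G) = g ^ k * x * (g ^ k)⁻¹ := by
      intro k
      induction k with
      | zero => intro x; simp
      | succ k ih =>
        intro x
        rw [pow_succ', MulAut.mul_apply]
        show g * ((cp ^ k) x : G) * g⁻¹ = _
        rw [ih, pow_succ']
        group
    refine MulEquiv.ext fun x => Subtype.ext ?_
    rw [key, ← hgo, pow_orderOf_eq_one]
    simp
  -- an element fixed by a power is fixed
  have hper : ∀ x : ↥S, ∀ k, k < 7 → k ≠ 0 → (cp ^ k) x = x → cp x = x := by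
    intro x k hk hk0 h
    have h' : (cp ^ k) • x = x := h
    have h1 : ((Nat.gcd k 7 : ℕ)) = 1 := by interval_cases k <;> first | omega | rfl
    have h7 : (cp ^ 7) • x = x := by rw [hc7]; rfl
    have := MulAction.pow_smul_eq_iff_minimalPeriod_dvd.1 h'
    have := Nat.dvd_gcd this (MulAction.pow_smul_eq_iff_minimalPeriod_dvd.1 h7)
    rw [h1] at this
    have h1' : cp ^ 1 • x = x := MulAction.pow_smul_eq_iff_minimalPeriod_dvd.2 this
    rw [pow_one] at h1'
    exact h1'
  have hfree : ∀ x : ↥S, cp x = x → x = 1 := by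
    intro x hx
    by_contra hne
    -- all elements are fixed
    have hall : ∀ y : ↥S, cp y = y := by
      by_contra hcon
      push Not at hcon
      obtain ⟨y, hy⟩ := hcon
      let f : Fin 7 → {z : ↥S // z ≠ 1 ∧ z ≠ x} := fun k => ⟨(cp ^ (k : ℕ)) y,
        fun e => hy (by
          have : y = 1 := (cp ^ (k : ℕ)).injective (e.trans (map_one _).symm)
          rw [this, map_one]),
        fun e => hy (by
          have h1 : ∀ j : ℕ, (cp ^ j) x = x := by
            intro j; induction j with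
            | zero => simp
            | succ j ih => rw [pow_succ, MulAut.mul_apply, hx, ih]
          have : y = x := (cp ^ (k : ℕ)).injective (e.trans (h1 _).symm)
          rw [this, hx])⟩
      have hf : Function.Injective f := by
        intro i j e
        have e' : (cp ^ (i : ℕ)) y = (cp ^ (j : ℕ)) y := congrArg Subtype.val e
        wlog hij : (i : ℕ) ≤ j generalizing i j
        · exact (this e.symm e'.symm (by omega)).symm
        by_contra hne'
        refine hy (hper y ((j : ℕ) - i) (by omega) (fun h0 => hne' (Fin.ext (by omega))) ?_)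
        refine (cp ^ (i : ℕ)).injective ?_
        rw [← MulAut.mul_apply, ← pow_add, Nat.add_sub_cancel' hij, e']
      have := Nat.card_le_card_of_injective f hf
      have h2 : Nat.card {z : ↥S // z ≠ 1 ∧ z ≠ x} ≤ 6 := by
        rw [Nat.card_eq_fintype_card, Fintype.card_subtype]
        have hs : ((Finset.univ : Finset ↥S).filter fun z => z ≠ 1 ∧ z ≠ x) = Finset.univ \ {1, x} := by
          ext z; simp
        rw [hs, Finset.card_univ_sdiff, Finset.card_pair (Ne.symm hne), ← Nat.card_eq_fintype_card, hS]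
      rw [Nat.card_fin] at this
      omega
    refine hgS ?_
    rw [← hC, Subgroup.mem_centralizer_iff]
    intro y hy
    have := congrArg Subtype.val (hall ⟨y, hy⟩)
    exact (mul_inv_eq_iff_eq_mul.1 this).symm
  haveI : Nontrivial ↥S := Finite.one_lt_card_iff_nontrivial.1 (by omega)
  obtain ⟨e, he⟩ := exists_ne (1 : ↥S)
  have hsqS : ∀ x : ↥S, x * x = 1 := fun x => Subtype.ext (hsq x x.2)
  have habS : ∀ x y : ↥S, x * y = y * x := fun x y => Subtype.ext (hab x x.2 y y.2)
  set e1 := cp e with he1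
  set e2 := cp e1 with he2
  set e3 := cp e2 with he3
  have hne : ∀ x : ↥S, x ≠ 1 → cp x ≠ x := fun x hx h => hx (hfree x h)
  have n1 : e1 ≠ 1 := fun h => he (cp.injective (h.trans (map_one cp).symm))
  have n01 : e1 ≠ e := hne e he
  have n02 : e2 ≠ e := fun h => hne e he (hper e 2 (by norm_num) (by norm_num)
    (by rw [pow_two, MulAut.mul_apply]; exact h))
  have n2 : e2 ≠ 1 := fun h => n1 (cp.injective (h.trans (map_one cp).symm))
  have n12 : e2 ≠ e1 := hne e1 n1
  have n2' : e2 ≠ e * e1 := by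
    intro h
    have h3 : e3 = e := by
      rw [he3, h, map_mul, ← he1, ← he2, h, habS e e1, ← mul_assoc, hsqS, one_mul]
    exact hne e he (hper e 3 (by norm_num) (by norm_num)
      (by rw [pow_succ', pow_two, MulAut.mul_apply, MulAut.mul_apply]; exact h3))
  let f : Bool × Bool × Bool → ↥S := fun p =>
    (cond p.1 e 1) * (cond p.2.1 e1 1) * (cond p.2.2 e2 1)
  have hinv : ∀ x : ↥S, x⁻¹ = x := fun x => inv_eq_of_mul_eq_one_right (hsqS x)
  have hf : Function.Bijective f := by
    rw [Nat.bijective_iff_injective_and_card]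
    refine ⟨?_, by rw [hS]; simp⟩
    have cm : ∀ x y z : ↥S, x * (y * z) = y * (x * z) := fun x y z => by
      rw [← mul_assoc, habS x y, mul_assoc]
    have mm : ∀ x y : ↥S, x * (x * y) = y := fun x y => by rw [← mul_assoc, hsqS, one_mul]
    rintro ⟨a, b, c'⟩ ⟨a', b', c''⟩ h
    have key : f ((xor a a'), (xor b b'), (xor c' c'')) = 1 := by
      have : f ((xor a a'), (xor b b'), (xor c' c'')) = f (a, b, c') * f (a', b', c'') := by
        cases a <;> cases b <;> cases c' <;> cases a' <;> cases b' <;> cases c'' <;>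
          simp [f, mul_assoc, hsqS, mm, cm e1 e, cm e2 e, cm e2 e1, habS e1 e, habS e2 e, habS e2 e1]
      rw [this, h, hsqS]
    have : ∀ a b c : Bool, f (a, b, c) = 1 → a = false ∧ b = false ∧ c = false := by
      intro a b c h
      cases a <;> cases b <;> cases c <;> simp [f] at h ⊢
      · exact n2 h
      · exact n1 h
      · exact n12 ((hinv e1) ▸ (eq_inv_of_mul_eq_one_right h))
      · exact he h
      · exact n02 ((hinv e) ▸ (eq_inv_of_mul_eq_one_right h))
      · exact n01 ((hinv e) ▸ (eq_inv_of_mul_eq_one_right h))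
      · exact n2' ((hinv (e * e1)) ▸ (eq_inv_of_mul_eq_one_right h))
    obtain ⟨p1, p2, p3⟩ := this _ _ _ key
    simp only [bne_eq_false_iff_eq] at p1 p2 p3
    subst p1; subst p2; subst p3; rfl
  have hcl : Subgroup.closure ({(e : G), (e1 : G), (e2 : G)} : Set G) = S := by
    refine le_antisymm ((Subgroup.closure_le _).2 ?_) fun x hx => ?_
    · rintro y (rfl | rfl | rfl) <;> exact SetLike.coe_mem _
    obtain ⟨⟨a, b, c'⟩, h⟩ := hf.2 ⟨x, hx⟩
    have hx' : x = (f (a, b, c') : G) := (congrArg Subtype.val h).symm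
    rw [hx']
    have h0 := Subgroup.subset_closure (k := ({(e : G), (e1 : G), (e2 : G)} : Set G)) (Or.inl rfl)
    have h1 := Subgroup.subset_closure (k := ({(e : G), (e1 : G), (e2 : G)} : Set G)) (Or.inr (Or.inl rfl))
    have h2 := Subgroup.subset_closure (k := ({(e : G), (e1 : G), (e2 : G)} : Set G)) (Or.inr (Or.inr rfl))
    cases a <;> cases b <;> cases c' <;> simp [f] <;> first
      | exact one_mem _ | exact h0 | exact h1 | exact h2 | exact mul_mem h0 h1 | exact mul_mem h0 h2
      | exact mul_mem h1 h2 | exact mul_mem (mul_mem h0 h1) h2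
  obtain ⟨⟨a, b, c'⟩, h3⟩ := hf.2 e3
  have hcases : e3 = e * e1 ∨ e3 = e * e2 := by
    have hn3 : e3 ≠ 1 := fun h => n2 (cp.injective (h.trans (map_one cp).symm))
    have n30 : e3 ≠ e := fun h => hne e he (hper e 3 (by norm_num) (by norm_num)
      (by rw [pow_succ', pow_two, MulAut.mul_apply, MulAut.mul_apply]; exact h))
    cases a <;> cases b <;> cases c' <;> simp [f] at h3
    · exact absurd h3.symm hn3
    · exact absurd (cp.injective (h3.symm.trans he2)) n12
    · exact absurd (cp.injective (h3.symm.trans he1) ) n02.elim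
    · exact absurd (cp.injective (show cp e2 = cp (e * e1) by rw [← he3, ← h3, map_mul, ← he1, ← he2])) n2'
    · exact absurd h3.symm n30
    · exact Or.inr h3.symm
    · exact Or.inl h3.symm
    · exfalso
      have h4 : cp e3 = e := by
        rw [← h3, map_mul, map_mul, ← he1, ← he2, ← he3, ← h3, habS (e * e1) e2, ← mul_assoc,
          mul_assoc e1, hsqS, mul_one, habS e e1, ← mul_assoc, hsqS, one_mul]
      exact hne e he (hper e 4 (by norm_num) (by norm_num)
        (by rw [pow_succ', pow_succ', pow_two, MulAut.mul_apply, MulAut.mul_apply, MulAut.mul_apply]; exact h4))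
  have com : ∀ x y : ↥S, Commute (x : G) y := fun x y => hab x x.2 y y.2
  rcases hcases with h | h
  · exact ⟨e, e1, e2, g, com _ _, com _ _, com _ _, rfl, rfl, congrArg Subtype.val h, hcl⟩
  · have hx : g⁻¹ * (e : G) * g⁻¹⁻¹ = e2 * e1 := by
      have : cp (e2 * e1) = e := by
        rw [map_mul, ← he3, ← he2, h, mul_assoc, hsqS, mul_one]
      have h' : g * ((e2 : G) * e1) * g⁻¹ = e := congrArg Subtype.val this
      rw [← h']
      group
    refine ⟨e2, e1, e, g⁻¹, com _ _, com _ _, com _ _, ?_, ?_, hx, ?_⟩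
    · show g⁻¹ * (g * (e1 : G) * g⁻¹) * g⁻¹⁻¹ = e1
      group
    · show g⁻¹ * (g * (e : G) * g⁻¹) * g⁻¹⁻¹ = e
      group
    · conv_rhs => rw [← hcl]
      congr 1
      ext y
      simp only [Set.mem_insert_iff, Set.mem_singleton_iff]
      tauto

theorem not_dvd_two {G : Type u} [Group G] [Finite G] (hfacts : ∀ S : Sylow 2 G,
      Nat.card S = 8 ∧ ∀ x ∈ S, x * x = 1)
    (hN : ∀ S : Sylow 2 G, Subgroup.centralizer ((S : Subgroup G) : Set G) = S ∧
      Nat.card (Subgroup.normalizer ((S : Subgroup G) : Set G)) = 168)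
    {Δ : Type v} [Group Δ] [Finite Δ] {τ : Δ →* G} (hτ : Cfsg.IsStemExtension τ) :
    ¬ 2 ∣ Nat.card τ.ker := by
  haveI : Fact (Nat.Prime 2) := ⟨Nat.prime_two⟩
  obtain ⟨S⟩ : Nonempty (Sylow 2 G) := inferInstance
  obtain ⟨e₀, e₁, e₂, g, h01, h02, h12, hg0, hg1, hg2, hcl⟩ :=
    singer_eight (S : Subgroup G) (hfacts S).1 (hfacts S).2 (hN S).1 (hN S).2
  refine SchurMult.not_dvd_ker_of_preimage hτ (S : Subgroup G) S.card_eq_multiplicity fun z _ hz => ?_
  have h := SchurMult.abelian_preimage_eight hτ h01 h02 h12 hg0 hg1 hg2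
  rw [hcl] at h
  rwa [h, Subgroup.mem_bot] at hz

variable {K : Type u} [Field K] [Fintype K] [CharP K 3] {m : ℕ} (θ : K ≃+* K)
  (hθ : ∀ t : K, θ t = t ^ 3 ^ m) (hK : Fintype.card K = 3 ^ (2 * m + 1))

include hθ hK

theorem two_part (G₁ : Subgroup (GL chevG2.Idx K)) (hG : G₁ = (reeTwist θ).fixed)
    (hperf : commutator ↥G₁ = ⊤) (Δ : Type u) [Group Δ] [Finite Δ] (τ : Δ →* ↥G₁)
    (hτ : Cfsg.IsStemExtension τ) : ¬ 2 ∣ Nat.card τ.ker := by
  subst hG
  obtain ⟨h8, hN⟩ := ree_sylow_two θ hθ hK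
  exact not_dvd_two h8 (hN hperf) hτ

theorem multiplier (hm : 1 ≤ m) : Cfsg.HasCyclicSchurMultiplier (GR K m) 1 := by
  classical
  refine SchurMult.hasTrivial_of_not_dvd fun Δ _ _ τ hτ p hp => ?_
  haveI : Fact p.Prime := ⟨hp⟩
  rcases eq_or_ne p 2 with rfl | h2
  · exact two_part θ hθ hK _ (eq_fixed θ hθ hK) (perfect_ree θ hθ hK hm) Δ τ hτ
  rcases eq_or_ne p 3 with rfl | h3
  · refine SchurMult.not_dvd_ker_of_preimage hτ (uSub K m) ?_
      (fun z hz1 hz2 => derived_meets_ker θ hθ hK hm τ hτ.1 hτ.2.1 hz1 hz2)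
    let P₀ : Sylow 3 (GR K m) := (IsPGroup.of_card (card_uSub θ hθ hK)).toSylow (index_uSub θ hθ hK)
    exact P₀.card_eq_multiplicity
  · refine SchurMult.not_dvd_ker_of_sylow hτ fun P Δ' _ _ τ' hτ' => ?_
    haveI := cyclic_sylow θ hθ hK hm h2 h3 P
    exact SchurMult.stem_ker_eq_bot_of_isCyclic hτ'

end Cfsg.Agent.Lib.ReeMult
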